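import Cfsg.Agent.Blocks.BrauerHom
import Cfsg.Agent.Blocks.ExistsModular
import Cfsg.Agent.Blocks.CentralizerSum
import Cfsg.Agent.CharDeep.LinearChar
import Cfsg.Agent.S0188

/-!
# S4816: characters of degree divisible by `p` from a block with defect group of order `p` (helper588)

* `exists_dvd` : `x` of order `p`, `n` a central involution, `ξ` an irreducible character of `C(x)` with
  `ξ n = -ξ 1` whose induced central character at `y` is an integer prime to `p`, while the number of conjugates of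
  `y` is divisible by `p`: then some irreducible `χ` with `χ n = -χ 1` has degree divisible by `p`.
* `exists_dvd'` : the same for `C(x) = ⟨x⟩ × ⟨n⟩ × L`, `θ` an irreducible character of `L`.
-/

set_option autoImplicit false

namespace Cfsg.Agent.H588.RIM

open Cfsg Subgroup Cfsg.Agent.Blocks.Local

universe u

variable {G : Type u} [Group G] [Finite G]

/-- a central involution acts as `1` or `-1` -/
theorem central_sign {χ : G → ℂ} (hχ : IsIrrCharacter G χ) {n : G} (hn : n ∈ center G) (h2 : n * n = 1) :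
    χ n = χ 1 ∨ χ n = -χ 1 := by
  obtain ⟨c, -, hc⟩ := Blocks.CentralizerSum.exists_central_scalar hχ (z := n) hn
  have h1 := hc 1
  have h3 := hc n
  rw [h2] at h3
  rw [mul_one] at h1
  have h0 : χ 1 ≠ 0 := Blocks.Basic.irr_one_ne_zero hχ
  rw [h1] at h3
  have h4 : c * c = 1 := by
    apply mul_right_cancel₀ h0
    rw [one_mul, mul_assoc, ← h3]
  rcases mul_self_eq_one_iff.1 h4 with h | h
  · left; rw [h1, h, one_mul]
  · right; rw [h1, h, neg_one_mul]

theorem exists_dvd {p : ℕ} [Fact p.Prime] (hp2 : p ≠ 2) {n x y : G} (hn : n ∈ center G) (hn2 : n * n = 1)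
    (hx : x ^ p = 1) {ξ : centralizer ({x} : Set G) → ℂ} (hξ : IsIrrCharacter _ ξ)
    (hξn : ∀ h : n ∈ centralizer ({x} : Set G), ξ ⟨n, h⟩ = -ξ 1)
    (hdiv : p ∣ (centralizer ({y} : Set G)).index) {w : ℤ} (hw : ¬ (p : ℤ) ∣ w)
    (hsum : inducedCentralChar (centralizer ({x} : Set G)) ξ y = w) :
    ∃ χ : G → ℂ, IsIrrCharacter G χ ∧ χ n = -χ 1 ∧ p ∣ charDegree χ := by
  have hp : p.Prime := Fact.out
  obtain ⟨M, hM⟩ := Blocks.ExistsModular.exists_isPModular hp
  have := isPrime_of_isPModular hM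
  have hP : IsPGroup p (zpowers x) := by
    intro ⟨g, hg⟩
    refine ⟨1, ?_⟩
    obtain ⟨k, rfl⟩ := mem_zpowers_iff.1 hg
    apply Subtype.ext
    show (x ^ k) ^ p ^ 1 = 1
    rw [pow_one, ← zpow_natCast, zpow_comm, zpow_natCast, hx, one_zpow]
  obtain ⟨χ, hχ⟩ := Blocks.BrauerHom.exists_irr_induced (H := centralizer ({x} : Set G)) hM hP
    (by
      rw [zpowers_le, mem_centralizer_singleton_iff])
    (centralizer_le (by rw [Set.singleton_subset_iff]; exact mem_zpowers x))
    (by
      intro g hg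
      rw [mem_centralizer_singleton_iff] at hg
      rw [mem_normalizer_iff]
      have hc : ∀ k : ℤ, g * x ^ k = x ^ k * g := fun k => ((show Commute g x from hg).zpow_right k)
      intro h
      constructor
      · intro hh
        obtain ⟨k, rfl⟩ := mem_zpowers_iff.1 hh
        rw [hc, mul_inv_cancel_right]
        exact hh
      · intro hh
        obtain ⟨k, hk⟩ := mem_zpowers_iff.1 hh
        have : h = x ^ k := by
          have h1 : g * h = x ^ k * g := by rw [hk, inv_mul_cancel_right]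
          rw [← hc] at h1
          exact mul_left_cancel h1
        rw [this]
        exact zpow_mem (mem_zpowers x) k) hξ
  have hχ0 : (χ : G → ℂ) 1 ≠ 0 := Blocks.Basic.irr_one_ne_zero χ.2
  have hξ0 : ξ 1 ≠ 0 := Blocks.Basic.irr_one_ne_zero hξ
  refine ⟨χ, χ.2, ?_, ?_⟩
  · rcases central_sign χ.2 hn hn2 with h | h
    · exfalso
      have hnc : n ∈ centralizer ({x} : Set G) := center_le_centralizer _ hn
      have h1 : inducedCentralChar (centralizer ({x} : Set G)) ξ n = -1 := by
        unfold inducedCentralChar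
        have h2 : {h : centralizer ({x} : Set G) | IsConj n (h : G)} = {⟨n, hnc⟩} := by
          ext h
          rw [Set.mem_ofPred_eq, Set.mem_singleton_iff]
          constructor
          · intro hh
            obtain ⟨c, hc⟩ := isConj_iff.1 hh
            apply Subtype.ext
            rw [← hc, (mem_center_iff.1 hn c), mul_inv_cancel_right]
          · rintro rfl
            exact IsConj.refl n
        rw [h2, finsum_mem_singleton, hξn hnc, neg_div, div_self hξ0]
      have h2 : centralChar (χ : G → ℂ) n = 1 := by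
        unfold centralChar
        have h3 : centralizer ({n} : Set G) = ⊤ := by
          rw [eq_top_iff]
          intro g _
          rw [mem_centralizer_singleton_iff]
          exact (mem_center_iff.1 hn g)
        rw [h3, index_top, h, Nat.cast_one, one_mul, div_self hχ0]
      have h3 := hχ n
      rw [h1, h2] at h3
      have h4 : (-1 - 1 : ℂ) = ((-2 : ℤ) : ℂ) := by norm_num
      rw [h4, memLocalIdeal_intCast_iff hM, Int.dvd_neg] at h3
      have h5 : p ∣ 2 := by exact_mod_cast h3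
      exact hp2 ((Nat.prime_dvd_prime_iff_eq hp Nat.prime_two).1 h5)
    · exact h
  · by_contra hnd
    have h1 := hχ y
    rw [hsum] at h1
    apply hw
    rw [← memLocalIdeal_intCast_iff hM]
    have h2 : MemLocalIdeal M (centralChar (χ : G → ℂ) y) := by
      unfold centralChar
      rw [mul_div_assoc]
      apply memLocalIdeal_mul_right
      · exact (memLocalIdeal_natCast_iff hM _).2 hdiv
      · rw [div_eq_mul_inv]
        apply memLocalRing_mul
        · exact memLocalRing_of_isIntegral (Blocks.Central.isIntegral_irr χ.2 y)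
        · rw [Blocks.Basic.irr_one_eq_charDegree χ.2]
          exact memLocalRing_inv_natCast hM hnd
    have h3 := memLocalIdeal_add h1 h2
    rwa [sub_add_cancel] at h3

omit [Finite G] in
theorem exists_lin {A : Type*} [Group A] [Finite A] (hA : ∀ a b : A, a * b = b * a) {a : A} (ha : a ≠ 1) :
    ∃ φ : A →* ℂˣ, φ a ≠ 1 := by
  let _ : CommGroup A := { ‹Group A› with mul_comm := hA }
  exact CommGroup.exists_apply_ne_one_of_hasEnoughRootsOfUnity A ℂ ha

/-- `C(x) = ⟨x⟩ × ⟨n⟩ × L` -/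
structure Dec (x n : G) (L : Subgroup G) : Prop where
  comm : ∀ s ∈ L, s * x = x * s
  dec : ∀ c : G, c * x = x * c → ∃ a ∈ zpowers x, ∃ b ∈ zpowers n, ∃ s ∈ L, c = a * b * s
  uniq : ∀ a ∈ zpowers x, ∀ b ∈ zpowers n, a * b ∈ L → a = 1 ∧ b = 1

theorem exists_ext {x n : G} {L : Subgroup G} (hd : Dec x n L) (hn : n ∈ center G) (hn2 : n * n = 1) (hn1 : n ≠ 1)
    {θ : L → ℂ} (hθ : IsIrrCharacter L θ) :
    ∃ ξ : centralizer ({x} : Set G) → ℂ, IsIrrCharacter _ ξ ∧
      (∀ h : n ∈ centralizer ({x} : Set G), ξ ⟨n, h⟩ = -ξ 1) ∧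
      ∀ (s : G) (hs : s ∈ L) (h : s ∈ centralizer ({x} : Set G)), ξ ⟨s, h⟩ = θ ⟨s, hs⟩ := by
  have hxc : ∀ a ∈ zpowers x, ∀ s ∈ L, a * s = s * a := by
    intro a ha s hs
    obtain ⟨k, rfl⟩ := mem_zpowers_iff.1 ha
    exact ((show Commute s x from hd.comm s hs).zpow_right k).eq.symm
  have hbc : ∀ b ∈ zpowers n, ∀ g : G, b * g = g * b := by
    intro b hb g
    exact ((mem_center_iff.1 ((zpowers_le.2 hn) hb)) g).symm
  have hmem : ∀ (t : (zpowers x × zpowers n) × L), (t.1.1 : G) * t.1.2 * t.2 ∈ centralizer ({x} : Set G) := by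
    intro t
    rw [mem_centralizer_singleton_iff]
    have h1 : (t.1.1 : G) * x = x * t.1.1 := by
      obtain ⟨k, hk⟩ := mem_zpowers_iff.1 t.1.1.2
      rw [← hk]
      exact ((Commute.refl x).zpow_left k).eq
    have h2 := hbc _ t.1.2.2 x
    have h3 := hd.comm _ t.2.2
    rw [mul_assoc, h3, ← mul_assoc, mul_assoc _ _ x, h2, ← mul_assoc, h1]
    simp only [mul_assoc]
  let Φ : (zpowers x × zpowers n) × L →* centralizer ({x} : Set G) :=
    { toFun := fun t => ⟨(t.1.1 : G) * t.1.2 * t.2, hmem t⟩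
      map_one' := by
        apply Subtype.ext
        show ((1 : zpowers x) : G) * ((1 : zpowers n) : G) * ((1 : L) : G) = 1
        simp
      map_mul' := by
        intro t t'
        apply Subtype.ext
        show ((t.1.1 * t'.1.1 : zpowers x) : G) * ((t.1.2 * t'.1.2 : zpowers n) : G) * ((t.2 * t'.2 : L) : G) =
          ((t.1.1 : G) * t.1.2 * t.2) * ((t'.1.1 : G) * t'.1.2 * t'.2)
        rw [coe_mul, coe_mul, coe_mul]
        have e1 := hxc _ t'.1.1.2 _ t.2.2
        have e2 := hbc _ t'.1.2.2 (t.2 : G)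
        have e3 := hbc _ t.1.2.2 (t'.1.1 : G)
        generalize (t.1.1 : G) = a1 at *
        generalize (t'.1.1 : G) = a2 at *
        generalize (t.1.2 : G) = b1 at *
        generalize (t'.1.2 : G) = b2 at *
        generalize (t.2 : G) = s1 at *
        generalize (t'.2 : G) = s2 at *
        calc a1 * a2 * (b1 * b2) * (s1 * s2) = a1 * (a2 * b1) * (b2 * s1) * s2 := by simp only [mul_assoc]
          _ = a1 * (b1 * a2) * (s1 * b2) * s2 := by rw [e3, e2]
          _ = a1 * b1 * (a2 * s1) * b2 * s2 := by simp only [mul_assoc]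
          _ = a1 * b1 * (s1 * a2) * b2 * s2 := by rw [e1]
          _ = a1 * b1 * s1 * (a2 * b2 * s2) := by simp only [mul_assoc] }
  have hΦ : Function.Bijective Φ := by
    constructor
    · rw [injective_iff_map_eq_one]
      rintro ⟨⟨a, b⟩, s⟩ h
      have h1 : (a : G) * b * s = 1 := congrArg Subtype.val h
      have h2 : (a : G) * b ∈ L := by
        rw [mul_eq_one_iff_eq_inv.1 h1]
        exact L.inv_mem s.2
      obtain ⟨h3, h4⟩ := hd.uniq a a.2 b b.2 h2
      rw [h3, h4, one_mul, one_mul] at h1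
      have h5 : a = 1 := Subtype.ext h3
      have h6 : b = 1 := Subtype.ext h4
      have h7 : s = 1 := Subtype.ext h1
      rw [h5, h6, h7]
      rfl
    · rintro ⟨c, hc⟩
      rw [mem_centralizer_singleton_iff] at hc
      obtain ⟨a, ha, b, hb, s, hs, rfl⟩ := hd.dec c hc
      exact ⟨((⟨a, ha⟩, ⟨b, hb⟩), ⟨s, hs⟩), rfl⟩
  let e : centralizer ({x} : Set G) ≃* (zpowers x × zpowers n) × L := (MulEquiv.ofBijective Φ hΦ).symm
  obtain ⟨φ, hφ⟩ : ∃ φ : zpowers n →* ℂˣ, φ ⟨n, mem_zpowers n⟩ ≠ 1 :=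
    exists_lin (fun a b => Subtype.ext (hbc a a.2 b)) (fun h => hn1 (congrArg Subtype.val h))
  have hφn : ((φ ⟨n, mem_zpowers n⟩ : ℂˣ) : ℂ) = -1 := by
    have h1 : φ ⟨n, mem_zpowers n⟩ * φ ⟨n, mem_zpowers n⟩ = 1 := by
      rw [← map_mul]
      have : (⟨n, mem_zpowers n⟩ : zpowers n) * ⟨n, mem_zpowers n⟩ = 1 := Subtype.ext hn2
      rw [this, map_one]
    have h2 : ((φ ⟨n, mem_zpowers n⟩ : ℂˣ) : ℂ) * ((φ ⟨n, mem_zpowers n⟩ : ℂˣ) : ℂ) = 1 := by
      rw [← Units.val_mul, h1, Units.val_one]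
    rcases mul_self_eq_one_iff.1 h2 with h | h
    · exact absurd (Units.ext h) hφ
    · exact h
  let F : (zpowers x × zpowers n) × L → ℂ := fun t => 1 * ((φ t.1.2 : ℂˣ) : ℂ) * θ t.2
  have h1 : IsIrrCharacter ((zpowers x × zpowers n) × L) F := S0188.isIrr_outer (S0188.isIrr_outer (Blocks.Basic.isIrrCharacter_one (G := zpowers x))
    (CharDeep.LinearChar.isIrrCharacter_of_hom φ)) hθ
  have h2 := Characters.Core.isIrr_comp e.toMonoidHom e.surjective h1
  have he : ∀ (t : (zpowers x × zpowers n) × L) (c : centralizer ({x} : Set G)), Φ t = c → e c = t := by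
    intro t c h
    rw [MulEquiv.symm_apply_eq]
    exact h.symm
  refine ⟨_, h2, ?_, ?_⟩
  · intro h
    have h3 : e ⟨n, h⟩ = ((1, ⟨n, mem_zpowers n⟩), 1) := he _ _ (by
      apply Subtype.ext
      show ((1 : zpowers x) : G) * n * ((1 : L) : G) = n
      simp)
    have h4 : e 1 = 1 := map_one e
    show F (e ⟨n, h⟩) = -F (e 1)
    rw [h3, h4]
    show (1 : ℂ) * ((φ ⟨n, mem_zpowers n⟩ : ℂˣ) : ℂ) * θ 1 = -(1 * ((φ 1 : ℂˣ) : ℂ) * θ 1)
    rw [hφn, map_one, Units.val_one]
    ring
  · intro s hs h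
    have h3 : e ⟨s, h⟩ = ((1, 1), ⟨s, hs⟩) := he _ _ (by
      apply Subtype.ext
      show ((1 : zpowers x) : G) * ((1 : zpowers n) : G) * s = s
      simp)
    show F (e ⟨s, h⟩) = _
    rw [h3]
    show (1 : ℂ) * ((φ 1 : ℂˣ) : ℂ) * θ ⟨s, hs⟩ = _
    rw [map_one, Units.val_one, one_mul, one_mul]

/-- the version with `C(x) = ⟨x⟩ × ⟨n⟩ × L`; `w θ(1)` is the sum of `θ` over the conjugates of `y` in `L` -/
theorem exists_dvd' {p : ℕ} [Fact p.Prime] (hp2 : p ≠ 2) {n x y : G} (hn : n ∈ center G) (hn2 : n * n = 1)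
    (hn1 : n ≠ 1) (hx : x ^ p = 1) {L : Subgroup G} (hd : Dec x n L)
    (hy : ∀ c : G, c * x = x * c → IsConj y c → c ∈ L)
    (hdiv : p ∣ (centralizer ({y} : Set G)).index) {θ : L → ℂ} (hθ : IsIrrCharacter L θ) {w : ℤ} (hw : ¬ (p : ℤ) ∣ w)
    (hsum : ∑ᶠ s ∈ {s : L | IsConj y (s : G)}, θ s / θ 1 = w) :
    ∃ χ : G → ℂ, IsIrrCharacter G χ ∧ χ n = -χ 1 ∧ p ∣ charDegree χ := by
  obtain ⟨ξ, h1, h2, h3⟩ := exists_ext hd hn hn2 hn1 hθ
  refine exists_dvd hp2 hn hn2 hx h1 h2 hdiv hw ?_
  rw [← hsum]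
  unfold inducedCentralChar
  have hLc : ∀ s : L, (s : G) ∈ centralizer ({x} : Set G) := fun s => by
    rw [mem_centralizer_singleton_iff]; exact hd.comm s s.2
  have h4 : {h : centralizer ({x} : Set G) | IsConj y (h : G)} =
      (fun s : L => (⟨s, hLc s⟩ : centralizer ({x} : Set G))) '' {s : L | IsConj y (s : G)} := by
    ext c
    constructor
    · intro hc
      have h5 : (c : G) ∈ L := hy c (by have := c.2; rwa [mem_centralizer_singleton_iff] at this) hc
      exact ⟨⟨c, h5⟩, hc, rfl⟩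
    · rintro ⟨s, hs, rfl⟩
      exact hs
  rw [h4, finsum_mem_image]
  · apply finsum_mem_congr rfl
    intro s _
    have h5 : ξ ⟨s, hLc s⟩ = θ s := h3 s s.2 (hLc s)
    have h6 : ξ 1 = θ 1 := h3 1 L.one_mem (one_mem _)
    rw [h5, h6]
  · intro s _ t _ h
    exact Subtype.ext (congrArg (fun c : centralizer ({x} : Set G) => (c : G)) h)

end Cfsg.Agent.H588.RIM
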