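import Cfsg.Agent.OddHalf.D9.EEight.Id.Onto
import Cfsg.Agent.H588.RIM.Br

/-!
# S4816: the centralizers of `a = s₀ s₂` (type `A₂`) and `b = s₄ s₅ s₆ s₇` (type `A₄`) in `K₀ = W(E₈)'` (helper588)

`dec_a : Dec a n (LX {0, 2})`, `dec_b : Dec b n (LX {4, 5, 6, 7})`.
-/

set_option autoImplicit false

namespace Cfsg.Agent.H588.RIM.KZ

open Cfsg Subgroup
open Cfsg.Agent.OddHalf.D9.EEight Cfsg.Agent.OddHalf.D9.EEight.Id.Gen

/-- the lattice -/
abbrev Lt : Type := Cfsg.Agent.OddHalf.D9.EEight.Lat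

/-- the simple reflections, computable -/
def R (i : Fin 8) (v : Lt) : Lt := v - form v (e i) • e i

/-- words -/
def run (w : List (Fin 8)) (v : Lt) : Lt := w.foldr R v

/-- words in `W` -/
noncomputable def wd (w : List (Fin 8)) : W := (w.map s).prod

theorem ap_wd (w : List (Fin 8)) (v : Lt) : ap (wd w) v = run w v := by
  induction w with
  | nil => exact ap_one v
  | cons i w ih =>
    unfold wd run at *
    rw [List.map_cons, List.prod_cons, ap_mul, ih, ap_s, List.foldr_cons]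
    rfl

theorem wd_append (w w' : List (Fin 8)) : wd (w ++ w') = wd w * wd w' := by
  unfold wd
  rw [List.map_append, List.prod_append]

theorem det_wd {w : List (Fin 8)} (h : w.length % 2 = 0) : det (wd w) = 1 := by
  have h1 : det (wd w) = (-1) ^ w.length := by
    unfold wd
    rw [map_list_prod, List.map_map]
    have : (w.map (det ∘ s)) = List.replicate w.length (-1) := by
      rw [List.eq_replicate_iff]
      refine ⟨List.length_map _, ?_⟩
      intro x hx
      obtain ⟨i, -, rfl⟩ := List.mem_map.1 hx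
      exact det_s i
    rw [this, List.prod_replicate]
  rw [h1, ← Nat.div_add_mod w.length 2, h, add_zero, pow_mul]
  simp

theorem lat_eq (x : Lt) : x = x 0 • e 0 + x 1 • e 1 + x 2 • e 2 + x 3 • e 3 + x 4 • e 4 + x 5 • e 5 + x 6 • e 6 +
    x 7 • e 7 := by
  funext i
  fin_cases i <;> simp [e]

theorem ext_e {v w : W} (h : ∀ i, ap v (e i) = ap w (e i)) : v = w := by
  apply ext_ap
  intro x
  rw [lat_eq x]
  simp only [ap_add, ap_smul, h]

theorem wd_eq {w w' : List (Fin 8)} (h : ∀ i, run w (e i) = run w' (e i)) : wd w = wd w' := by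
  apply ext_e
  intro i
  rw [ap_wd, ap_wd, h]

/-- words of even length in `K₀` -/
noncomputable def kw (w : List (Fin 8)) (h : w.length % 2 = 0) : ↥K₀ := ⟨wd w, det_wd h⟩

noncomputable def a : ↥K₀ := kw [0, 2] rfl
noncomputable def b : ↥K₀ := kw [4, 5, 6, 7] rfl
noncomputable def ga : ↥K₀ := kw [0, 1] rfl
noncomputable def gb : ↥K₀ := kw [4, 6, 5, 1] rfl

/-- `-1` -/
def n : ↥K₀ := ⟨neg, Cfsg.Agent.OddHalf.D9.EEight.Id.Onto.det_neg'⟩

/-- the pointwise stabiliser of simple roots -/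
def LX (I : Finset (Fin 8)) : Subgroup ↥K₀ where
  carrier := {w | ∀ i ∈ I, ap (w : W) (e i) = e i}
  mul_mem' := by
    intro v w hv hw i hi
    rw [coe_mul, ap_mul, hw i hi, hv i hi]
  one_mem' := fun i _ => ap_one (e i)
  inv_mem' := by
    intro v hv i hi
    have h1 : ap ((v⁻¹ : ↥K₀) : W) (ap (v : W) (e i)) = e i := by
      rw [← ap_mul, ← coe_mul, inv_mul_cancel]
      exact ap_one (e i)
    rwa [hv i hi] at h1

theorem mem_LX {I : Finset (Fin 8)} {w : ↥K₀} : w ∈ LX I ↔ ∀ i ∈ I, ap (w : W) (e i) = e i := Iff.rfl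

theorem a_cube : a ^ 3 = 1 := by
  apply Subtype.ext
  have h : wd ([0, 2] ++ ([0, 2] ++ [0, 2])) = wd [] := wd_eq (by decide +kernel)
  rw [wd_append, wd_append] at h
  rw [pow_succ, pow_succ, pow_one]
  rw [coe_mul, coe_mul, mul_assoc]
  exact h

theorem b_five : b ^ 5 = 1 := by
  apply Subtype.ext
  have h : wd ([4, 5, 6, 7] ++ ([4, 5, 6, 7] ++ ([4, 5, 6, 7] ++ ([4, 5, 6, 7] ++ [4, 5, 6, 7])))) = wd [] :=
    wd_eq (by decide +kernel)
  rw [wd_append, wd_append, wd_append, wd_append] at h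
  rw [pow_succ', pow_succ', pow_succ', pow_succ', pow_one]
  rw [coe_mul, coe_mul, coe_mul, coe_mul]
  exact h

theorem ab_comm : a * b = b * a := by
  apply Subtype.ext
  have h : wd ([0, 2] ++ [4, 5, 6, 7]) = wd ([4, 5, 6, 7] ++ [0, 2]) := wd_eq (by decide +kernel)
  rw [wd_append, wd_append] at h
  exact h

theorem ga_conj : ga * a * ga⁻¹ = a ^ 2 := by
  rw [mul_inv_eq_iff_eq_mul]
  apply Subtype.ext
  have h : wd ([0, 1] ++ [0, 2]) = wd ([0, 2] ++ ([0, 2] ++ [0, 1])) := wd_eq (by decide +kernel)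
  rw [wd_append, wd_append, wd_append] at h
  rw [pow_two, mul_assoc]
  exact h

theorem gb_conj : gb * b * gb⁻¹ = b ^ 2 := by
  rw [mul_inv_eq_iff_eq_mul]
  apply Subtype.ext
  have h : wd ([4, 6, 5, 1] ++ [4, 5, 6, 7]) = wd ([4, 5, 6, 7] ++ ([4, 5, 6, 7] ++ [4, 6, 5, 1])) :=
    wd_eq (by decide +kernel)
  rw [wd_append, wd_append, wd_append] at h
  rw [pow_two, mul_assoc]
  exact h

theorem a_mem : a ∈ LX {4, 5, 6, 7} := by
  intro i hi
  show ap (wd [0, 2]) (e i) = e i
  rw [ap_wd]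
  revert i
  decide +kernel

theorem b_mem : b ∈ LX {0, 2} := by
  intro i hi
  show ap (wd [4, 5, 6, 7]) (e i) = e i
  rw [ap_wd]
  revert i
  decide +kernel

theorem ga_mem : ga ∈ LX {4, 5, 6, 7} := by
  intro i hi
  show ap (wd [0, 1]) (e i) = e i
  rw [ap_wd]
  revert i
  decide +kernel

theorem gb_mem : gb ∈ LX {0, 2} := by
  intro i hi
  show ap (wd [4, 6, 5, 1]) (e i) = e i
  rw [ap_wd]
  revert i
  decide +kernel

theorem n_sq : n * n = 1 := by
  apply Subtype.ext
  apply ext_ap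
  intro x
  rw [coe_mul, ap_mul]
  show ap neg (ap neg x) = ap 1 x
  rw [ap_neg_one, ap_neg_one, neg_neg, ap_one]

theorem ap_n (x : Lt) : ap ((n : ↥K₀) : W) x = -x := ap_neg_one x

theorem n_central : n ∈ center ↥K₀ := by
  rw [mem_center_iff]
  intro g
  apply Subtype.ext
  apply ext_ap
  intro x
  rw [coe_mul, coe_mul, ap_mul, ap_mul, ap_n, ap_n, ap_neg]

theorem n_ne : n ≠ 1 := by
  intro h
  have h1 := ap_n (e 0)
  rw [h] at h1
  have h2 : ap ((1 : ↥K₀) : W) (e 0) = e 0 := ap_one _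
  rw [h2] at h1
  revert h1
  decide +kernel

/-- an element fixing the letters of a word commutes with it -/
theorem comm_wd {g : W} {w : List (Fin 8)} (h : ∀ i ∈ w, ap g (e i) = e i) (x : Lt) :
    ap g (run w x) = run w (ap g x) := by
  induction w with
  | nil => rfl
  | cons i w ih =>
    show ap g (R i (run w x)) = R i (run w (ap g x))
    rw [← ih fun j hj => h j (List.mem_cons_of_mem _ hj)]
    have h1 : ap g (e i) = e i := h i List.mem_cons_self
    unfold R
    rw [ap_sub, ap_smul, h1]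
    congr 2
    conv_rhs => rw [← h1, form_ap]

theorem comm_kw {g : ↥K₀} {w : List (Fin 8)} {hw : w.length % 2 = 0} (h : ∀ i ∈ w, ap (g : W) (e i) = e i) :
    g * kw w hw = kw w hw * g := by
  apply Subtype.ext
  apply ext_ap
  intro x
  rw [coe_mul, coe_mul, ap_mul, ap_mul]
  show ap (g : W) (ap (wd w) x) = ap (wd w) (ap (g : W) x)
  rw [ap_wd, ap_wd, comm_wd h]

/-! ### the two decompositions -/

theorem run_coord {w : List (Fin 8)} {i : Fin 8} (h : i ∉ w) (r : Lt) : run w r i = r i := by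
  induction w with
  | nil => rfl
  | cons j w ih =>
    rw [List.mem_cons, not_or] at h
    show (R j (run w r)) i = r i
    unfold R
    rw [Pi.sub_apply, Pi.smul_apply, ih h.2]
    have h1 : e j i = 0 := by
      unfold e
      exact Pi.single_eq_of_ne h.1 1
    rw [h1, smul_zero, sub_zero]

theorem dec_core {x : ↥K₀} {I : Finset (Fin 8)} {v : Lt}
    (hcase : ∀ c : ↥K₀, c * x = x * c → ∃ k : ℕ, ap (c : W) v = ap ((x ^ k : ↥K₀) : W) v ∨
      ap (c : W) v = -ap ((x ^ k : ↥K₀) : W) v)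
    (hfix : ∀ s : ↥K₀, s * x = x * s → ap (s : W) v = v → s ∈ LX I) (c : ↥K₀) (hc : c * x = x * c) :
    ∃ g ∈ zpowers x, ∃ m ∈ zpowers n, ∃ s ∈ LX I, c = g * m * s := by
  obtain ⟨k, hk⟩ := hcase c hc
  have hxk : x ^ k * x = x * x ^ k := (Commute.refl x).pow_left k
  have hnx : n * x = x * n := ((mem_center_iff.1 n_central x)).symm
  rcases hk with hk | hk
  · refine ⟨x ^ k, pow_mem (mem_zpowers x) k, 1, one_mem _, (x ^ k)⁻¹ * c, hfix _ ?_ ?_, by
      rw [mul_one, mul_inv_cancel_left]⟩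
    · have h1 : Commute (x ^ k)⁻¹ x := (show Commute (x ^ k) x from hxk).inv_left
      exact h1.mul_left hc
    · rw [coe_mul, ap_mul, hk, ← ap_mul, ← coe_mul, inv_mul_cancel]
      exact ap_one v
  · refine ⟨x ^ k, pow_mem (mem_zpowers x) k, n, mem_zpowers n, (x ^ k * n)⁻¹ * c, hfix _ ?_ ?_, by
      rw [mul_inv_cancel_left]⟩
    · have h1 : Commute (x ^ k * n)⁻¹ x :=
        ((show Commute (x ^ k) x from hxk).mul_left (show Commute n x from hnx)).inv_left
      exact h1.mul_left hc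
    · have h2 : -ap ((x ^ k : ↥K₀) : W) v = ap ((x ^ k * n : ↥K₀) : W) v := by
        rw [coe_mul, ap_mul, ap_n, ap_neg]
      rw [coe_mul, ap_mul, hk, h2, ← ap_mul, ← coe_mul, inv_mul_cancel]
      exact ap_one v

theorem ap_pow_kw {w : List (Fin 8)} {hw : w.length % 2 = 0} (k : ℕ) (v : Lt) :
    ap ((kw w hw ^ k : ↥K₀) : W) v = (run w)^[k] v := by
  induction k with
  | zero =>
    rw [pow_zero]
    exact ap_one v
  | succ k ih =>
    rw [pow_succ', coe_mul, ap_mul, ih, Function.iterate_succ_apply']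
    exact ap_wd w _

theorem a_fin : ∀ x ∈ Finset.Icc (-1 : ℤ) 1, ∀ y ∈ Finset.Icc (-1 : ℤ) 1, x * x - x * y + y * y = 1 →
    ∃ k < 3, x • e 0 + y • e 2 = (run [0, 2])^[k] (e 0) ∨ x • e 0 + y • e 2 = -((run [0, 2])^[k] (e 0)) := by
  decide +kernel

theorem a_case (r : Lt) (hr : form r r = 2) (h0 : r + run [0, 2] r + run [0, 2] (run [0, 2] r) = 0) :
    ∃ k < 3, r = (run [0, 2])^[k] (e 0) ∨ r = -((run [0, 2])^[k] (e 0)) := by
  have hz : ∀ i : Fin 8, i ∉ ([0, 2] : List (Fin 8)) → r i = 0 := by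
    intro i hi
    have h1 := congrFun h0 i
    rw [Pi.add_apply, Pi.add_apply, run_coord hi, run_coord hi, run_coord hi, Pi.zero_apply] at h1
    omega
  have h1 := hz 1 (by decide)
  have h3 := hz 3 (by decide)
  have h4 := hz 4 (by decide)
  have h5 := hz 5 (by decide)
  have h6 := hz 6 (by decide)
  have h7 := hz 7 (by decide)
  have hr2 : r 0 * r 0 - r 0 * r 2 + r 2 * r 2 = 1 := by
    rw [form_expl, h1, h3, h4, h5, h6, h7] at hr
    linarith
  have hre : r = r 0 • e 0 + r 2 • e 2 := by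
    conv_lhs => rw [lat_eq r, h1, h3, h4, h5, h6, h7]
    simp
  rw [hre]
  refine a_fin _ ?_ _ ?_ hr2
  · rw [Finset.mem_Icc]
    constructor <;> nlinarith [sq_nonneg (r 0 - 2 * r 2), sq_nonneg (r 0)]
  · rw [Finset.mem_Icc]
    constructor <;> nlinarith [sq_nonneg (2 * r 0 - r 2), sq_nonneg (r 2)]

theorem b_fin : ∀ x ∈ Finset.Icc (-1 : ℤ) 1, ∀ y ∈ Finset.Icc (-2 : ℤ) 2, ∀ z ∈ Finset.Icc (-2 : ℤ) 2,
    ∀ t ∈ Finset.Icc (-1 : ℤ) 1, x * x + (x - y) * (x - y) + (y - z) * (y - z) + (z - t) * (z - t) + t * t = 2 →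
    form (x • e 4 + y • e 5 + z • e 6 + t • e 7) (run [4, 5, 6, 7] (x • e 4 + y • e 5 + z • e 6 + t • e 7)) = -1 →
    ∃ k < 5, x • e 4 + y • e 5 + z • e 6 + t • e 7 = (run [4, 5, 6, 7])^[k] (e 4) ∨
      x • e 4 + y • e 5 + z • e 6 + t • e 7 = -((run [4, 5, 6, 7])^[k] (e 4)) := by
  decide +kernel

theorem b_case (r : Lt) (hr : form r r = 2) (hf : form r (run [4, 5, 6, 7] r) = -1)
    (h0 : r + run [4, 5, 6, 7] r + run [4, 5, 6, 7] (run [4, 5, 6, 7] r) +
      run [4, 5, 6, 7] (run [4, 5, 6, 7] (run [4, 5, 6, 7] r)) +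
      run [4, 5, 6, 7] (run [4, 5, 6, 7] (run [4, 5, 6, 7] (run [4, 5, 6, 7] r))) = 0) :
    ∃ k < 5, r = (run [4, 5, 6, 7])^[k] (e 4) ∨ r = -((run [4, 5, 6, 7])^[k] (e 4)) := by
  have hz : ∀ i : Fin 8, i ∉ ([4, 5, 6, 7] : List (Fin 8)) → r i = 0 := by
    intro i hi
    have h1 := congrFun h0 i
    simp only [Pi.add_apply, run_coord hi, Pi.zero_apply] at h1
    omega
  have h0' := hz 0 (by decide)
  have h1 := hz 1 (by decide)
  have h2 := hz 2 (by decide)
  have h3 := hz 3 (by decide)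
  have hr2 : r 4 * r 4 + (r 4 - r 5) * (r 4 - r 5) + (r 5 - r 6) * (r 5 - r 6) + (r 6 - r 7) * (r 6 - r 7) +
      r 7 * r 7 = 2 := by
    rw [form_expl, h0', h1, h2, h3] at hr
    linarith
  have hre : r = r 4 • e 4 + r 5 • e 5 + r 6 • e 6 + r 7 • e 7 := by
    conv_lhs => rw [lat_eq r, h0', h1, h2, h3]
    simp
  rw [hre]
  rw [hre] at hf
  have b4 : -1 ≤ r 4 ∧ r 4 ≤ 1 := by
    constructor <;> nlinarith [sq_nonneg (r 4 - r 5), sq_nonneg (r 5 - r 6), sq_nonneg (r 6 - r 7), sq_nonneg (r 7),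
      sq_nonneg (r 4)]
  have b7 : -1 ≤ r 7 ∧ r 7 ≤ 1 := by
    constructor <;> nlinarith [sq_nonneg (r 4 - r 5), sq_nonneg (r 5 - r 6), sq_nonneg (r 6 - r 7), sq_nonneg (r 7),
      sq_nonneg (r 4)]
  have b45 : -1 ≤ r 4 - r 5 ∧ r 4 - r 5 ≤ 1 := by
    constructor <;> nlinarith [sq_nonneg (r 4 - r 5), sq_nonneg (r 5 - r 6), sq_nonneg (r 6 - r 7), sq_nonneg (r 7),
      sq_nonneg (r 4)]
  have b67 : -1 ≤ r 6 - r 7 ∧ r 6 - r 7 ≤ 1 := by
    constructor <;> nlinarith [sq_nonneg (r 4 - r 5), sq_nonneg (r 5 - r 6), sq_nonneg (r 6 - r 7), sq_nonneg (r 7),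
      sq_nonneg (r 4)]
  refine b_fin _ (Finset.mem_Icc.2 b4) _ (Finset.mem_Icc.2 ?_) _ (Finset.mem_Icc.2 ?_) _ (Finset.mem_Icc.2 b7) hr2 hf
  · constructor <;> linarith [b4.1, b4.2, b45.1, b45.2]
  · constructor <;> linarith [b7.1, b7.2, b67.1, b67.2]

/-- commuting with a word -/
theorem ap_comm {c : ↥K₀} {w : List (Fin 8)} {hw : w.length % 2 = 0} (hc : c * kw w hw = kw w hw * c) (v : Lt) :
    ap (c : W) (run w v) = run w (ap (c : W) v) := by
  have h1 := congrArg (fun g : ↥K₀ => ap (g : W) v) hc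
  simp only [coe_mul, ap_mul] at h1
  have h2 : ∀ u : Lt, ap ((kw w hw : ↥K₀) : W) u = run w u := fun u => ap_wd w u
  rw [h2, h2] at h1
  exact h1

theorem form_ap' (c : W) (x : Lt) : form (ap c x) (ap c x) = form x x := form_ap c x x

theorem zp {x : ↥K₀} {p : ℕ} (hx : x ^ p = 1) (hp : 0 < p) {g : ↥K₀} (hg : g ∈ zpowers x) :
    ∃ k < p, g = x ^ k := by
  have hf : IsOfFinOrder x := isOfFinOrder_iff_pow_eq_one.2 ⟨p, hp, hx⟩
  obtain ⟨k, hk⟩ := (hf.mem_powers_iff_mem_zpowers).2 hg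
  refine ⟨k % p, Nat.mod_lt _ hp, ?_⟩
  have hk' : x ^ k = g := hk
  rw [← hk', ← Nat.mod_add_div k p, pow_add, pow_mul, hx, one_pow, mul_one, Nat.mod_add_div]

theorem zn {g : ↥K₀} (hg : g ∈ zpowers n) : g = 1 ∨ g = n := by
  obtain ⟨k, hk, rfl⟩ := zp (p := 2) (by rw [pow_two]; exact n_sq) (by norm_num) hg
  interval_cases k
  · left; exact pow_zero _
  · right; exact pow_one _

theorem uniq_core {x : ↥K₀} {p : ℕ} (hx : x ^ p = 1) (hp : 0 < p) {I : Finset (Fin 8)} {i : Fin 8} (hi : i ∈ I)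
    (h1 : ∀ k < p, ap ((x ^ k : ↥K₀) : W) (e i) = e i → k = 0)
    (h2 : ∀ k < p, -ap ((x ^ k : ↥K₀) : W) (e i) ≠ e i) (g : ↥K₀) (hg : g ∈ zpowers x) (m : ↥K₀)
    (hm : m ∈ zpowers n) (hL : g * m ∈ LX I) : g = 1 ∧ m = 1 := by
  obtain ⟨k, hk, rfl⟩ := zp hx hp hg
  rcases zn hm with rfl | rfl
  · rw [mul_one] at hL
    have h3 := h1 k hk (hL i hi)
    rw [h3, pow_zero]
    exact ⟨rfl, rfl⟩
  · exfalso
    have h3 := hL i hi
    rw [coe_mul, ap_mul, ap_n, ap_neg] at h3
    exact h2 k hk h3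

/-- **the centralizer of `a`** -/
theorem dec_a : Dec a n (LX {0, 2}) where
  comm := fun s hs => comm_kw (fun i hi => hs i (by
    simp only [List.mem_cons, List.not_mem_nil, or_false] at hi
    simpa using hi))
  dec := by
    apply dec_core (v := e 0)
    · intro c hc
      obtain ⟨k, -, hk⟩ := a_case (ap (c : W) (e 0)) (by rw [form_ap']; decide +kernel) (by
        rw [← ap_comm hc, ← ap_comm hc, ← ap_add, ← ap_add]
        have h : e 0 + run [0, 2] (e 0) + run [0, 2] (run [0, 2] (e 0)) = 0 := by decide +kernel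
        rw [h, ap_zero])
      refine ⟨k, ?_⟩
      unfold a
      rw [ap_pow_kw]
      exact hk
    · intro s hs h0
      have h2 : ap (s : W) (e 2) = e 2 := by
        have h : run [0, 2] (e 0) = e 2 := by decide +kernel
        rw [← h]
        rw [ap_comm hs, h0]
      intro i hi
      rcases Finset.mem_insert.1 hi with rfl | hi
      · exact h0
      · rw [Finset.mem_singleton.1 hi]
        exact h2
  uniq := by
    apply uniq_core a_cube (by norm_num) (i := 0) (by decide)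
    · intro k hk
      unfold a
      rw [ap_pow_kw]
      revert k
      decide +kernel
    · intro k hk
      unfold a
      rw [ap_pow_kw]
      revert k
      decide +kernel

/-- **the centralizer of `b`** -/
theorem dec_b : Dec b n (LX {4, 5, 6, 7}) where
  comm := fun s hs => comm_kw (fun i hi => hs i (by
    simp only [List.mem_cons, List.not_mem_nil, or_false] at hi
    simpa using hi))
  dec := by
    apply dec_core (v := e 4)
    · intro c hc
      obtain ⟨k, -, hk⟩ := b_case (ap (c : W) (e 4)) (by rw [form_ap']; decide +kernel)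
        (by rw [← ap_comm hc, form_ap]; decide +kernel) (by
        rw [← ap_comm hc, ← ap_comm hc, ← ap_comm hc, ← ap_comm hc, ← ap_add, ← ap_add, ← ap_add, ← ap_add]
        have h : e 4 + run [4, 5, 6, 7] (e 4) + run [4, 5, 6, 7] (run [4, 5, 6, 7] (e 4)) +
            run [4, 5, 6, 7] (run [4, 5, 6, 7] (run [4, 5, 6, 7] (e 4))) +
            run [4, 5, 6, 7] (run [4, 5, 6, 7] (run [4, 5, 6, 7] (run [4, 5, 6, 7] (e 4)))) = 0 := by decide +kernel
        rw [h, ap_zero])
      refine ⟨k, ?_⟩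
      unfold b
      rw [ap_pow_kw]
      exact hk
    · intro s hs h4
      have h5 : ap (s : W) (e 5) = e 5 := by
        have h : run [4, 5, 6, 7] (e 4) = e 5 := by decide +kernel
        rw [← h]
        rw [ap_comm hs, h4]
      have h6 : ap (s : W) (e 6) = e 6 := by
        have h : run [4, 5, 6, 7] (e 5) = e 6 := by decide +kernel
        rw [← h]
        rw [ap_comm hs, h5]
      have h7 : ap (s : W) (e 7) = e 7 := by
        have h : run [4, 5, 6, 7] (e 6) = e 7 := by decide +kernel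
        rw [← h]
        rw [ap_comm hs, h6]
      intro i hi
      simp only [Finset.mem_insert, Finset.mem_singleton] at hi
      rcases hi with rfl | rfl | rfl | rfl
      · exact h4
      · exact h5
      · exact h6
      · exact h7
  uniq := by
    apply uniq_core b_five (by norm_num) (i := 4) (by decide)
    · intro k hk
      unfold b
      rw [ap_pow_kw]
      revert k
      decide +kernel
    · intro k hk
      unfold b
      rw [ap_pow_kw]
      revert k
      decide +kernel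

end Cfsg.Agent.H588.RIM.KZ
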