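import Cfsg.Agent.S0145
import Cfsg.Agent.Blocks.Basic
import Cfsg.Agent.Characters.Values
import Cfsg.Agent.Characters.GaloisBasic

/-!
# S4816: values at a rational element of prime order whose square does not divide the order (helper588)
-/

set_option autoImplicit false

namespace Cfsg.Agent.H588.RIM

open Cfsg Subgroup
open scoped ComplexConjugate
open Cfsg.Agent.Characters.Core Cfsg.Agent.Characters.Values

universe u

variable {L : Type u} [Group L] [Finite L]

omit [Finite L] in
theorem ord_conj (g y : L) : orderOf (g * y * g⁻¹) = orderOf y := by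
  rw [← MulAut.conj_apply, MulEquiv.orderOf_eq]

theorem exists_pow_of_mem {x y : L} (h : x ∈ zpowers y) : ∃ j : ℕ, y ^ j = x := by
  rw [← mem_powers_iff_mem_zpowers] at h
  exact h

/-- elements of prime order `r`, `r²` not dividing the order, one of them rational: all are conjugate -/
theorem conj_all {r : ℕ} [hr : Fact r.Prime] (hL : ¬ r ^ 2 ∣ Nat.card L) {y : L} (hy : orderOf y = r)
    (hc : ∀ j : ℕ, ¬ r ∣ j → IsConj y (y ^ j)) {s : L} (hs : orderOf s = r) : IsConj y s := by
  have h1 : r ∣ Nat.card L := hy ▸ orderOf_dvd_natCard y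
  have hf : (Nat.card L).factorization r = 1 := by
    have h0 : Nat.card L ≠ 0 := Nat.card_pos.ne'
    have h2 := (hr.out.pow_dvd_iff_le_factorization h0 (k := 1)).1 (by rwa [pow_one])
    have h3 := mt (hr.out.pow_dvd_iff_le_factorization h0 (k := 2)).2 hL
    omega
  have hcard : ∀ z : L, orderOf z = r → Nat.card (zpowers z) = r ^ (Nat.card L).factorization r := by
    intro z hz
    rw [Nat.card_zpowers, hz, hf, pow_one]
  let P : Sylow r L := Sylow.ofCard (zpowers y) (hcard y hy)
  let S : Sylow r L := Sylow.ofCard (zpowers s) (hcard s hs)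
  obtain ⟨g, hg⟩ := MulAction.exists_smul_eq L P S
  have h2 : g * y * g⁻¹ ∈ zpowers s := by
    have h3 : g * y * g⁻¹ ∈ ((g • P : Sylow r L) : Subgroup L) := by
      rw [Sylow.coe_subgroup_smul]
      exact ⟨y, mem_zpowers y, rfl⟩
    rw [hg] at h3
    exact h3
  have h3 : s ∈ zpowers (g * y * g⁻¹) := by
    have h4 : zpowers (g * y * g⁻¹) = zpowers s := by
      apply eq_of_le_of_card_ge (zpowers_le.2 h2)
      rw [Nat.card_zpowers, Nat.card_zpowers, hs, ord_conj, hy]
    rw [h4]
    exact mem_zpowers s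
  obtain ⟨j, hj⟩ := exists_pow_of_mem h3
  have hjr : ¬ r ∣ j := by
    intro h
    have h5 : s = 1 := by
      rw [← hj]
      obtain ⟨t, rfl⟩ := h
      rw [pow_mul, ← hy, ← ord_conj g y, pow_orderOf_eq_one, one_pow]
    rw [h5, orderOf_one] at hs
    exact hr.out.one_lt.ne hs
  have h6 : IsConj (y ^ j) s := by
    rw [isConj_iff]
    refine ⟨g, ?_⟩
    rw [← hj, conj_pow]
  exact (hc j hjr).trans h6

omit [Finite L] in
/-- from one conjugating element -/
theorem conj_pow_of {y g : L} {r k : ℕ} (hy : y ^ r = 1) (hg : g * y * g⁻¹ = y ^ k)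
    (hk : ∀ j < r, j ≠ 0 → ∃ i < r, k ^ i % r = j) (hr : 0 < r) (j : ℕ) (hj : ¬ r ∣ j) : IsConj y (y ^ j) := by
  have h1 : ∀ i : ℕ, IsConj y (y ^ k ^ i) := by
    intro i
    induction i with
    | zero => rw [pow_zero, pow_one]
    | succ i ih =>
      refine ih.trans ?_
      rw [isConj_iff]
      refine ⟨g, ?_⟩
      rw [← conj_pow, hg, ← pow_mul, pow_succ', mul_comm]
  obtain ⟨i, -, hi⟩ := hk (j % r) (Nat.mod_lt _ hr) (fun h => hj (Nat.dvd_of_mod_eq_zero h))
  have h2 : y ^ k ^ i = y ^ j := by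
    rw [← Nat.mod_add_div (k ^ i) r, ← Nat.mod_add_div j r, hi, pow_add, pow_add, pow_mul, pow_mul, hy, one_pow, one_pow]
  rw [← h2]
  exact h1 i

/-- the value at such an element -/
theorem exists_val {θ : L → ℂ} (hθ : IsIrrCharacter L θ) {r : ℕ} (hr : r.Prime) {y : L} (hy : orderOf y = r)
    (hc : ∀ j : ℕ, ¬ r ∣ j → IsConj y (y ^ j)) :
    ∃ m : ℤ, θ y = m ∧ (r : ℤ) ∣ (charDegree θ : ℤ) - m ∧ m * m ≤ Nat.card (centralizer ({y} : Set L)) := by
  classical
  have := Fintype.ofFinite L
  have := Fintype.ofFinite (zpowers y)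
  have : Finite (IrrCharacter L) := finite_irr (G := L)
  have : Fintype (IrrCharacter L) := Fintype.ofFinite _
  have hd := Blocks.Basic.irr_one_eq_charDegree hθ
  have ha : ∀ x ∈ zpowers y, x ≠ 1 → θ x = θ y := by
    intro x hx hx1
    obtain ⟨j, hj⟩ := exists_pow_of_mem hx
    rw [← hj]
    refine (Blocks.Basic.irr_isConj hθ (hc j ?_)).symm
    rintro ⟨t, rfl⟩
    apply hx1
    rw [← hj, pow_mul, ← hy, pow_orderOf_eq_one, one_pow]
  obtain ⟨m, hm⟩ := classInner_isNat (isCharacter_comp (zpowers y).subtype (isIrr_isCharacter hθ))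
    (isCharacter_one (G := zpowers y))
  have hcard : Nat.card (zpowers y) = r := by rw [Nat.card_zpowers, hy]
  have h1 : (charDegree θ : ℂ) + ((r : ℂ) - 1) * θ y = r * m := by
    rw [classInner_def] at hm
    have h2 : ∑ g : zpowers y, (θ ∘ (zpowers y).subtype) g * conj ((1 : zpowers y → ℂ) g) =
        (charDegree θ : ℂ) + ((r : ℂ) - 1) * θ y := by
      rw [← Finset.add_sum_erase Finset.univ _ (Finset.mem_univ (1 : zpowers y))]
      congr 1
      · simp [hd]
      · rw [Finset.sum_congr rfl (g := fun _ => θ y)]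
        · rw [Finset.sum_const, Finset.card_erase_of_mem (Finset.mem_univ _), Finset.card_univ,
            ← Nat.card_eq_fintype_card, hcard, nsmul_eq_mul, Nat.cast_sub hr.one_lt.le, Nat.cast_one]
        · intro g hg
          have hg1 : g ≠ 1 := (Finset.mem_erase.1 hg).1
          have : θ g = θ y := ha g g.2 fun h => hg1 (Subtype.ext h)
          simp [this]
    rw [h2, hcard] at hm
    have hr0 : (r : ℂ) ≠ 0 := by exact_mod_cast hr.ne_zero
    rw [← hm, ← mul_assoc, mul_inv_cancel₀ hr0, one_mul]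
  -- the value is rational, hence an integer
  obtain ⟨a, haz⟩ : ∃ a : ℤ, θ y = a := by
    have hr1 : ((r : ℂ) - 1) ≠ 0 := by
      have : (r : ℂ) ≠ 1 := by exact_mod_cast hr.one_lt.ne'
      exact sub_ne_zero.2 this
    apply Cfsg.Agent.Characters.GaloisBasic.exists_int_of_rat (isIrr_isCharacter hθ)
    refine ⟨((r : ℚ) * m - charDegree θ) / ((r : ℚ) - 1), ?_⟩
    push_cast
    rw [eq_div_iff hr1]
    linear_combination h1
  refine ⟨a, haz, ?_, ?_⟩
  · rw [haz] at h1
    have h2 : (charDegree θ : ℤ) + ((r : ℤ) - 1) * a = r * m := by exact_mod_cast h1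
    exact ⟨m - a, by linear_combination h2⟩
  · have h1 := S0145.sum_irr_mul_conj y y
    rw [if_pos (IsConj.refl y)] at h1
    have h2 : ∀ χ : IrrCharacter L, (χ : L → ℂ) y * conj ((χ : L → ℂ) y) = (Complex.normSq ((χ : L → ℂ) y) : ℂ) :=
      fun χ => Complex.mul_conj _
    rw [Finset.sum_congr rfl fun χ _ => h2 χ] at h1
    have h3 : ∑ χ : IrrCharacter L, Complex.normSq ((χ : L → ℂ) y) = (Nat.card (centralizer ({y} : Set L)) : ℝ) := by
      exact_mod_cast h1
    have h4 : Complex.normSq (θ y) ≤ ∑ χ : IrrCharacter L, Complex.normSq ((χ : L → ℂ) y) :=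
      Finset.single_le_sum (f := fun χ : IrrCharacter L => Complex.normSq ((χ : L → ℂ) y))
        (fun χ _ => Complex.normSq_nonneg _) (Finset.mem_univ ⟨θ, hθ⟩)
    rw [h3, haz] at h4
    have h5 : Complex.normSq (a : ℂ) = (a : ℝ) * a := by
      rw [Complex.normSq_intCast]
    rw [h5] at h4
    exact_mod_cast h4

end Cfsg.Agent.H588.RIM
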