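import Cfsg.Agent.H588.RIM.KZero
import Cfsg.Agent.H588.RIM.Val

/-!
# S4816: characters of `K₀ = W(E₈)'`, nontrivial on `-1`, of degree divisible by 3 and by 5 (helper588)

The identification of the two stabilisers is a hypothesis here.
-/

set_option autoImplicit false

namespace Cfsg.Agent.H588.RIM

open Cfsg Subgroup

universe u

section general

variable {G : Type u} [Group G] [Finite G]

omit [Finite G] in
theorem zp_comm {x n : G} {L : Subgroup G} (hd : Dec x n L) {g : G} (hg : g ∈ zpowers x) {s : G} (hs : s ∈ L) :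
    g * s = s * g := by
  obtain ⟨k, rfl⟩ := mem_zpowers_iff.1 hg
  exact ((show Commute s x from hd.comm s hs).zpow_right k).eq.symm

omit [Finite G] in
theorem zn_comm {n : G} (hn : n ∈ center G) {g : G} (hg : g ∈ zpowers n) (s : G) : g * s = s * g :=
  ((mem_center_iff.1 ((zpowers_le.2 hn) hg)) s).symm

omit [Finite G] in
theorem Dec.mem_C {x n : G} {L : Subgroup G} (hd : Dec x n L) (hn : n ∈ center G) {g m s : G} (hg : g ∈ zpowers x)
    (hm : m ∈ zpowers n) (hs : s ∈ L) : (g * m * s) * x = x * (g * m * s) := by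
  have h1 : Commute g x := by
    obtain ⟨k, rfl⟩ := mem_zpowers_iff.1 hg
    exact (Commute.refl x).zpow_left k
  have h2 : Commute m x := zn_comm hn hm x
  have h3 : Commute s x := hd.comm s hs
  exact (h1.mul_left h2).mul_left h3

omit [Finite G] in
/-- the order of the centralizer -/
theorem Dec.card {x n : G} {L : Subgroup G} (hd : Dec x n L) (hn : n ∈ center G) :
    Nat.card (centralizer ({x} : Set G)) = orderOf x * orderOf n * Nat.card L := by
  let f : (zpowers x × zpowers n) × L → centralizer ({x} : Set G) := fun t =>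
    ⟨(t.1.1 : G) * t.1.2 * t.2, by
      rw [mem_centralizer_singleton_iff]
      exact hd.mem_C hn t.1.1.2 t.1.2.2 t.2.2⟩
  have hf : Function.Bijective f := by
    constructor
    · rintro ⟨⟨g, m⟩, s⟩ ⟨⟨g', m'⟩, s'⟩ h
      have h1 : (g : G) * m * s = g' * m' * s' := congrArg Subtype.val h
      have h2 : ((g' : G)⁻¹ * g) * ((m : G) * (m' : G)⁻¹) = s' * (s : G)⁻¹ := by
        have e1 : (g : G) * m = g' * m' * s' * (s : G)⁻¹ := by rw [← h1, mul_inv_cancel_right]
        have e2 : (m' : G)⁻¹ ∈ zpowers n := inv_mem m'.2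
        calc ((g' : G)⁻¹ * g) * ((m : G) * (m' : G)⁻¹) = (g' : G)⁻¹ * (g * m) * (m' : G)⁻¹ := by
              simp only [mul_assoc]
          _ = (g' : G)⁻¹ * (g' * m' * s' * (s : G)⁻¹) * (m' : G)⁻¹ := by rw [e1]
          _ = m' * (s' * (s : G)⁻¹) * (m' : G)⁻¹ := by simp only [mul_assoc, inv_mul_cancel_left]
          _ = s' * (s : G)⁻¹ * m' * (m' : G)⁻¹ := by rw [zn_comm hn m'.2]
          _ = s' * (s : G)⁻¹ := by rw [mul_inv_cancel_right]
      obtain ⟨h3, h4⟩ := hd.uniq _ (mul_mem (inv_mem g'.2) g.2) _ (mul_mem m.2 (inv_mem m'.2))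
        (by rw [h2]; exact L.mul_mem s'.2 (L.inv_mem s.2))
      have h5 : g = g' := Subtype.ext (inv_mul_eq_one.1 h3).symm
      have h6 : m = m' := Subtype.ext (mul_inv_eq_one.1 h4)
      rw [h3, h4, one_mul] at h2
      have h7 : s = s' := Subtype.ext (mul_inv_eq_one.1 h2.symm).symm
      rw [h5, h6, h7]
    · rintro ⟨c, hc⟩
      rw [mem_centralizer_singleton_iff] at hc
      obtain ⟨g, hg, m, hm, s, hs, rfl⟩ := hd.dec c hc
      exact ⟨((⟨g, hg⟩, ⟨m, hm⟩), ⟨s, hs⟩), rfl⟩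
  rw [← Nat.card_congr (Equiv.ofBijective f hf), Nat.card_prod, Nat.card_prod, Nat.card_zpowers, Nat.card_zpowers]

omit [Finite G] in
/-- elements of `C(x)` of order prime to `2p` lie in `L` -/
theorem Dec.mem_of_pow {x n : G} {L : Subgroup G} (hd : Dec x n L) (hn : n ∈ center G) {p r : ℕ} (hx : x ^ p = 1)
    (hn2 : n ^ 2 = 1) (hrp : r.Coprime p) (hr2 : r.Coprime 2) {c : G} (hc : c * x = x * c) (hcr : c ^ r = 1) :
    c ∈ L := by
  obtain ⟨g, hg, m, hm, s, hs, rfl⟩ := hd.dec c hc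
  have h1 : Commute (g * m) s := by
    show g * m * s = s * (g * m)
    rw [mul_assoc, zn_comm hn hm, ← mul_assoc, zp_comm hd hg hs, mul_assoc]
  have h2 : Commute g m := (zn_comm hn hm g).symm
  rw [h1.mul_pow, h2.mul_pow] at hcr
  have h3 : g ^ r * m ^ r ∈ L := by
    rw [mul_eq_one_iff_eq_inv.1 hcr]
    exact L.inv_mem (L.pow_mem hs r)
  obtain ⟨h4, h5⟩ := hd.uniq _ (pow_mem hg r) _ (pow_mem hm r) h3
  have hg1 : g = 1 := by
    obtain ⟨k, rfl⟩ := mem_zpowers_iff.1 hg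
    have h6 : (x ^ k) ^ p = 1 := by rw [← zpow_natCast, zpow_comm, zpow_natCast, hx, one_zpow]
    have h7 := Nat.dvd_gcd (orderOf_dvd_of_pow_eq_one h4) (orderOf_dvd_of_pow_eq_one h6)
    rw [hrp.gcd_eq_one, Nat.dvd_one, orderOf_eq_one_iff] at h7
    exact h7
  have hm1 : m = 1 := by
    obtain ⟨k, rfl⟩ := mem_zpowers_iff.1 hm
    have h6 : (n ^ k) ^ 2 = 1 := by rw [← zpow_natCast, zpow_comm, zpow_natCast, hn2, one_zpow]
    have h7 := Nat.dvd_gcd (orderOf_dvd_of_pow_eq_one h5) (orderOf_dvd_of_pow_eq_one h6)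
    rw [hr2.gcd_eq_one, Nat.dvd_one, orderOf_eq_one_iff] at h7
    exact h7
  rw [hg1, hm1, one_mul, one_mul]
  exact hs

/-- **the criterion** -/
theorem main_dvd {p r : ℕ} [Fact p.Prime] [hr : Fact r.Prime] (hp2 : p ≠ 2) (hr2 : r ≠ 2) (hpr : r ≠ p) {x n y g : G}
    (hn : n ∈ center G) (hn2 : n * n = 1) (hn1 : n ≠ 1) (hx : x ^ p = 1) {L : Subgroup G} (hd : Dec x n L)
    (hy : y ∈ L) (hg : g ∈ L) (hyr : orderOf y = r) (hgy : g * y * g⁻¹ = y ^ 2)
    (hk : ∀ j < r, j ≠ 0 → ∃ i < r, 2 ^ i % r = j) (hL : ¬ r ^ 2 ∣ Nat.card L)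
    (hC : ∀ c ∈ L, c * y = y * c → c ∈ zpowers y) (hdiv : p ∣ (centralizer ({y} : Set G)).index)
    {θ : L → ℂ} (hθ : IsIrrCharacter L θ)
    (hw : ∀ m : ℤ, (r : ℤ) ∣ (charDegree θ : ℤ) - m → m * m ≤ r → ∃ w : ℤ, ¬ (p : ℤ) ∣ w ∧
      ((Nat.card L / r : ℕ) : ℤ) * m = w * charDegree θ) :
    ∃ χ : G → ℂ, IsIrrCharacter G χ ∧ χ n = -χ 1 ∧ p ∣ charDegree χ := by
  have hp : p.Prime := Fact.out
  -- inside `L`
  let yL : L := ⟨y, hy⟩
  let gL : L := ⟨g, hg⟩
  have hyL : orderOf yL = r := by rw [← hyr]; exact (Subgroup.orderOf_mk y hy)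
  have hgL : gL * yL * gL⁻¹ = yL ^ 2 := Subtype.ext hgy
  have hyp : yL ^ r = 1 := by rw [← hyL]; exact pow_orderOf_eq_one yL
  have hcj := conj_pow_of hyp hgL hk hr.out.pos
  have hall : ∀ s : L, orderOf s = r → IsConj yL s := fun s hs => conj_all hL hyL hcj hs
  have hCL : centralizer ({yL} : Set L) = zpowers yL := by
    apply le_antisymm
    · intro c hc
      rw [mem_centralizer_singleton_iff] at hc
      obtain ⟨k, hk⟩ := mem_zpowers_iff.1 (hC c c.2 (congrArg Subtype.val hc))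
      exact mem_zpowers_iff.2 ⟨k, Subtype.ext hk⟩
    · rw [zpowers_le, mem_centralizer_singleton_iff]
  have hcard : Nat.card (centralizer ({yL} : Set L)) = r := by rw [hCL, Nat.card_zpowers, hyL]
  have hidx : (centralizer ({yL} : Set L)).index = Nat.card L / r := by
    rw [← hcard, ← (centralizer ({yL} : Set L)).card_mul_index, Nat.mul_div_cancel_left _ Nat.card_pos]
  obtain ⟨m, hm1, hm2, hm3⟩ := exists_val hθ hr.out hyL hcj
  rw [hcard] at hm3
  obtain ⟨w, hpw, hwe⟩ := hw m hm2 hm3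
  have hset : {s : L | IsConj y (s : G)} = {s : L | IsConj yL s} := by
    ext s
    constructor
    · intro hs
      obtain ⟨c, hc⟩ := isConj_iff.1 hs
      apply hall
      rw [← Subgroup.orderOf_coe, ← hc, ord_conj, hyr]
    · intro hs
      obtain ⟨c, hc⟩ := isConj_iff.1 hs
      rw [Set.mem_ofPred_eq, isConj_iff]
      exact ⟨c, by rw [← hc]; rfl⟩
  refine exists_dvd' hp2 hn hn2 hn1 hx hd ?_ hdiv hθ hpw ?_
  · intro c hc hyc
    obtain ⟨t, ht⟩ := isConj_iff.1 hyc
    refine hd.mem_of_pow hn hx (by rw [pow_two]; exact hn2) ((Nat.coprime_primes hr.out hp).2 hpr)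
      ((Nat.coprime_primes hr.out Nat.prime_two).2 hr2) hc ?_
    have : orderOf c = r := by rw [← ht, ord_conj, hyr]
    rw [← this]
    exact pow_orderOf_eq_one c
  · rw [hset]
    have h1 : ∑ᶠ s ∈ {s : L | IsConj yL s}, θ s / θ 1 = ∑ᶠ s ∈ {s : L | IsConj yL s}, (θ yL / θ 1) := by
      apply finsum_mem_congr rfl
      intro s hs
      rw [Blocks.Basic.irr_isConj hθ hs]
    have h2 : ∑ᶠ s ∈ {s : L | IsConj yL s}, (θ yL / θ 1) = (({s : L | IsConj yL s}.ncard : ℕ) : ℂ) * (θ yL / θ 1) := by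
      rw [finsum_mem_eq_finite_toFinset_sum _ (Set.toFinite _), Finset.sum_const, nsmul_eq_mul,
        Set.ncard_eq_toFinset_card _ (Set.toFinite _)]
    have h3 : θ 1 ≠ 0 := Blocks.Basic.irr_one_ne_zero hθ
    rw [h1, h2, ← Blocks.Basic.index_centralizer_eq_ncard, hidx, hm1, Blocks.Basic.irr_one_eq_charDegree hθ]
    rw [Blocks.Basic.irr_one_eq_charDegree hθ] at h3
    rw [← mul_div_assoc, div_eq_iff h3]
    generalize Nat.card L / r = q at hwe
    exact_mod_cast hwe

end general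

section KZero

open Cfsg.Agent.OddHalf.D9.EEight Cfsg.Agent.OddHalf.D9.EEight.Id.Gen KZ

theorem a5_cent : ∀ y : alternatingGroup (Fin 5), y ^ 3 = 1 → y ≠ 1 →
    Fintype.card {g : alternatingGroup (Fin 5) // g * y = y * g} = 3 := by decide +kernel

theorem ord_n : orderOf n = 2 := orderOf_eq_prime (by rw [pow_two]; exact n_sq) n_ne

theorem a_ne : a ≠ 1 := by
  intro h
  have h1 := ap_pow_kw (w := [0, 2]) (hw := rfl) 1 (e 0)
  have h2 : (kw [0, 2] rfl : ↥K₀) = 1 := h
  rw [h2, one_pow] at h1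
  have h3 : ap ((1 : ↥K₀) : W) (e 0) = e 0 := ap_one _
  rw [h3] at h1
  revert h1
  decide +kernel

theorem b_ne : b ≠ 1 := by
  intro h
  have h1 := ap_pow_kw (w := [4, 5, 6, 7]) (hw := rfl) 1 (e 4)
  have h2 : (kw [4, 5, 6, 7] rfl : ↥K₀) = 1 := h
  rw [h2, one_pow] at h1
  have h3 : ap ((1 : ↥K₀) : W) (e 4) = e 4 := ap_one _
  rw [h3] at h1
  revert h1
  decide +kernel

theorem ord_a : orderOf a = 3 := by
  have := Fact.mk Nat.prime_three
  exact orderOf_eq_prime a_cube a_ne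

theorem ord_b : orderOf b = 5 := by
  have := Fact.mk Nat.prime_five
  exact orderOf_eq_prime b_five b_ne

variable [Finite ↥K₀]

/-- the centralizer of `a` in `L₅ ≅ A₅` -/
theorem cent_a (h5 : Nonempty (LX {4, 5, 6, 7} ≃* alternatingGroup (Fin 5))) {c : ↥K₀} (hc : c ∈ LX {4, 5, 6, 7})
    (hca : c * a = a * c) : c ∈ zpowers a := by
  obtain ⟨f⟩ := h5
  let aL : LX {4, 5, 6, 7} := ⟨a, a_mem⟩
  have h1 : (f aL) ^ 3 = 1 := by
    rw [← map_pow]
    have : aL ^ 3 = 1 := Subtype.ext a_cube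
    rw [this, map_one]
  have h2 : f aL ≠ 1 := by
    intro h
    have h3 : aL = 1 := f.injective (by rw [h, map_one])
    exact a_ne (congrArg Subtype.val h3)
  have h3 := a5_cent (f aL) h1 h2
  have h4 : Nat.card (centralizer ({aL} : Set (LX {4, 5, 6, 7}))) = 3 := by
    rw [← h3, ← Nat.card_eq_fintype_card]
    apply Nat.card_congr
    refine f.toEquiv.subtypeEquiv fun g => ?_
    rw [mem_centralizer_singleton_iff]
    constructor
    · intro h
      show f g * f aL = f aL * f g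
      rw [← map_mul, ← map_mul, h]
    · intro h
      apply f.injective
      rw [map_mul, map_mul]
      exact h
  have h5 : zpowers aL = centralizer ({aL} : Set (LX {4, 5, 6, 7})) := by
    apply eq_of_le_of_card_ge
    · rw [zpowers_le, mem_centralizer_singleton_iff]
    · rw [h4, Nat.card_zpowers]
      have : orderOf aL = 3 := by rw [← ord_a]; exact Subgroup.orderOf_mk a a_mem
      rw [this]
  have h6 : (⟨c, hc⟩ : LX {4, 5, 6, 7}) ∈ zpowers aL := by
    rw [h5, mem_centralizer_singleton_iff]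
    exact Subtype.ext hca
  obtain ⟨k, hk⟩ := mem_zpowers_iff.1 h6
  exact mem_zpowers_iff.2 ⟨k, congrArg Subtype.val hk⟩

/-- the centralizer of `b` in `L₃` -/
theorem cent_b (h5 : Nonempty (LX {4, 5, 6, 7} ≃* alternatingGroup (Fin 5))) {c : ↥K₀} (hc : c ∈ LX {0, 2})
    (hcb : c * b = b * c) : c ∈ zpowers b := by
  obtain ⟨g, hg, m, hm, s, hs, rfl⟩ := dec_b.dec c hcb
  have hgL : g ∈ LX {0, 2} := (zpowers_le.2 b_mem) hg
  have hms : m * s ∈ LX {0, 2} := by
    have := (LX {0, 2}).mul_mem ((LX {0, 2}).inv_mem hgL) hc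
    rwa [mul_assoc, inv_mul_cancel_left] at this
  -- `s` commutes with `a`
  have h1 : (m * s) * a = a * (m * s) := dec_a.comm _ hms
  have h2 : s * a = a * s := by
    have h3 := zn_comm n_central hm
    have h4 : m * (s * a) = m * (a * s) := by
      rw [← mul_assoc, h1, ← mul_assoc, ← h3 a, mul_assoc]
    exact mul_left_cancel h4
  have h3 := cent_a h5 hs h2
  obtain ⟨h4, h5⟩ := dec_a.uniq s h3 m hm (by rw [← zn_comm n_central hm]; exact hms)
  rw [h4, h5, mul_one, mul_one]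
  exact hg

/-- **degree divisible by 5** -/
theorem odd_five (hK : Nat.card ↥K₀ = 348364800) (h5 : Nonempty (LX {4, 5, 6, 7} ≃* alternatingGroup (Fin 5)))
    (h3 : Nat.card (LX {0, 2}) = 25920) {θ : LX {4, 5, 6, 7} → ℂ} (hθ : IsIrrCharacter _ θ) (hd : charDegree θ = 5) :
    ∃ χ : ↥K₀ → ℂ, IsIrrCharacter ↥K₀ χ ∧ χ n = -χ 1 ∧ 5 ∣ charDegree χ := by
  have := Fact.mk Nat.prime_three
  have := Fact.mk Nat.prime_five
  have hcard : Nat.card (LX {4, 5, 6, 7}) = 60 := by
    obtain ⟨f⟩ := h5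
    rw [Nat.card_congr f.toEquiv, Nat.card_eq_fintype_card]
    decide +kernel
  refine main_dvd (r := 3) (y := a) (g := ga) (by norm_num) (by norm_num) (by norm_num) n_central n_sq n_ne b_five dec_b
    a_mem ga_mem ord_a ga_conj (by decide) ?_ (fun c hc h => cent_a h5 hc h) ?_ hθ ?_
  · rw [hcard]; decide
  · have h1 := (centralizer ({a} : Set ↥K₀)).card_mul_index
    rw [dec_a.card n_central, ord_a, ord_n, h3, hK] at h1
    omega
  · rw [hd, hcard]
    intro m h1 h2
    push_cast at h1 h2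
    have h3 : -1 ≤ m ∧ m ≤ 1 := by constructor <;> nlinarith
    obtain ⟨h3, h4⟩ := h3
    have h5 : m = -1 := by omega
    exact ⟨-4, by decide, by rw [h5]; norm_num⟩

/-- **degree divisible by 3** -/
theorem odd_three (hK : Nat.card ↥K₀ = 348364800) (h5 : Nonempty (LX {4, 5, 6, 7} ≃* alternatingGroup (Fin 5)))
    (h3 : Nat.card (LX {0, 2}) = 25920) {θ : LX {0, 2} → ℂ} (hθ : IsIrrCharacter _ θ) (hd : charDegree θ = 81) :
    ∃ χ : ↥K₀ → ℂ, IsIrrCharacter ↥K₀ χ ∧ χ n = -χ 1 ∧ 3 ∣ charDegree χ := by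
  have := Fact.mk Nat.prime_three
  have := Fact.mk Nat.prime_five
  have hcard : Nat.card (LX {4, 5, 6, 7}) = 60 := by
    obtain ⟨f⟩ := h5
    rw [Nat.card_congr f.toEquiv, Nat.card_eq_fintype_card]
    decide +kernel
  refine main_dvd (r := 5) (y := b) (g := gb) (by norm_num) (by norm_num) (by norm_num) n_central n_sq n_ne a_cube dec_a
    b_mem gb_mem ord_b gb_conj (by decide) ?_ (fun c hc h => cent_b h5 hc h) ?_ hθ ?_
  · rw [h3]; decide
  · have h1 := (centralizer ({b} : Set ↥K₀)).card_mul_index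
    rw [dec_b.card n_central, ord_b, ord_n, hcard, hK] at h1
    omega
  · rw [hd, h3]
    intro m h1 h2
    push_cast at h1 h2
    have h3 : -2 ≤ m ∧ m ≤ 2 := by constructor <;> nlinarith
    obtain ⟨h3, h4⟩ := h3
    have h5 : m = 1 := by omega
    exact ⟨64, by decide, by rw [h5]; norm_num⟩

end KZero

end Cfsg.Agent.H588.RIM
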